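import Cfsg.Agent.Lib.Helper89.QDU.A2
import Cfsg.Agent.Lib.Helper17.SUNondegB
import Cfsg.Agent.Lib.Helper79.LinPGroup

set_option autoImplicit false

namespace Cfsg.Agent.Lib.QDU
open Module Function Cfsg.Agent.Lib.Helper97 Cfsg.Agent.Lib.Helper17.SUNondeg Cfsg.Agent.Lib.Helper79

section geom
variable {K : Type*} [Field K] [Finite K] {V : Type*} [AddCommGroup V] [Module K V]
  [FiniteDimensional K V] {σ : K ≃+* K} {f : V → V → K}

/-- A1 -/
theorem exists_rad (h : UF σ f) (p : ℕ) [Fact p.Prime] [CharP K p] {G : Type*} [Group G]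
    (ρ : G →* Module.End K V) (hρ : ∀ g x y, f (ρ g x) (ρ g y) = f x y)
    (Q : Subgroup G) [Finite Q] (hQ : IsPGroup p Q) (g₀ : G) (hg₀ : g₀ ∈ Q) (hne : ρ g₀ ≠ 1) :
    ∃ e : V, e ≠ 0 ∧ (∀ g ∈ Q, ρ g e = e) ∧ ∀ w : V, (∀ g ∈ Q, ρ g w = w) → f e w = 0 := by
  let W : Submodule K V :=
    { carrier := {v | ∀ g ∈ Q, ρ g v = v}
      add_mem' := by
        intro a b ha hb g hg
        rw [map_add, ha g hg, hb g hg]
      zero_mem' := fun g _ => map_zero _
      smul_mem' := by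
        intro c a ha g hg
        rw [map_smul, ha g hg] }
  by_contra hcon
  push Not at hcon
  have hW : NDOn f W := by
    intro w hw hw0
    obtain ⟨x, hx, hfx⟩ := hcon w hw0 hw
    exact ⟨x, hx, fun h0 => hfx (by rw [h.herm, h0, map_zero])⟩
  have hinvP : ∀ g : Q, ∀ y ∈ perp h W, (ρ.comp Q.subtype) g y ∈ perp h W := by
    intro g y hy w hw
    have h1 : ρ g w = w := hw g g.2
    have h2 := hρ g y w
    rw [h1] at h2
    show f (ρ g y) w = 0
    rw [h2]
    exact hy w hw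
  have hP : perp h W = ⊥ := by
    by_contra hPne
    have : Nontrivial (perp h W) := Submodule.nontrivial_iff_ne_bot.mpr hPne
    obtain ⟨y, hy0, hy⟩ := LPG.exists_fixed p (Nat.card Q) Q rfl hQ (perp h W)
      (LPG.resU (ρ.comp Q.subtype) (perp h W) hinvP)
    have hyW : (y : V) ∈ W := by
      intro g hg
      have := congrArg Subtype.val (hy ⟨g, hg⟩)
      exact this
    have h0 := (Submodule.disjoint_def.mp (disjoint_perp h hW)) y hyW y.2
    exact hy0 (Subtype.ext h0)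
  apply hne
  ext v
  obtain ⟨w, hw, x, hx, rfl⟩ := exists_decomp h hW v
  rw [hP, Submodule.mem_bot] at hx
  subst hx
  simp [hw g₀ hg₀]

/-- A3 (from A1, A2) -/
theorem exists_invariant_line (h : UF σ f) (h3 : finrank K V = 3) (p : ℕ) [Fact p.Prime]
    [CharP K p] {G : Type*} [Group G]
    (ρ : G →* Module.End K V) (hρ : ∀ g x y, f (ρ g x) (ρ g y) = f x y)
    (Q : Subgroup G) [Finite Q] (hQ : IsPGroup p Q) (g₀ : G) (hg₀ : g₀ ∈ Q) (hne : ρ g₀ ≠ 1) :
    ∃ e : V, e ≠ 0 ∧ f e e = 0 ∧ ∀ g ∈ Subgroup.normalizer (Q : Set G), ∃ c : K, ρ g e = c • e := by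
  obtain ⟨e, he, hfix, hrad⟩ := exists_rad h p ρ hρ Q hQ g₀ hg₀ hne
  have hmul : ∀ (a b : G) v, ρ (a * b) v = ρ a (ρ b v) := fun a b v => by rw [map_mul]; rfl
  refine ⟨e, he, hrad e hfix, ?_⟩
  intro g hg
  have hfix' : ∀ k ∈ Q, ρ k (ρ g e) = ρ g e := by
    intro k hk
    have hk' : g⁻¹ * k * g ∈ Q := by
      have h2 := (Subgroup.mem_normalizer_iff.mp (Subgroup.inv_mem _ hg) k).mp hk
      simpa using h2
    have h4 := hfix _ hk'
    have h5 : k * g = g * (g⁻¹ * k * g) := by group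
    rw [← hmul, h5, hmul, h4]
  exact iso_line h h3 e (ρ g e) he (hrad e hfix) (by rw [hρ]; exact hrad e hfix) (hrad _ hfix')

end geom

end Cfsg.Agent.Lib.QDU
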