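import Cfsg.Agent.Lib.Helper89.QDU.A4

set_option autoImplicit false

namespace Cfsg.Agent.Lib.QDU
open Module Function Cfsg.Agent.Lib.Helper97

section geom
variable {K : Type*} [Field K] {V : Type*} [AddCommGroup V] [Module K V]
  [FiniteDimensional K V] {σ : K ≃+* K} {f : V → V → K}

/-- A2 -/
theorem iso_line (h : UF σ f) (h3 : finrank K V = 3) (e e' : V) (he : e ≠ 0) (h1 : f e e = 0)
    (h2 : f e' e' = 0) (h12 : f e e' = 0) : ∃ c : K, e' = c • e := by
  obtain ⟨u, hue, hu, hspan⟩ := perp_basis h h3 e he h1
  have heu : f e u = 0 := by rw [h.herm, hue, map_zero]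
  have huu : f u u ≠ 0 := by
    intro huu
    obtain ⟨x, hx⟩ := h.nondeg e he
    apply hu (σ (f x u / f x e))
    apply h.hat_injective
    rw [h.hat_smul, h.involutive]
    ext v
    simp only [h.hat_apply, LinearMap.smul_apply, smul_eq_mul]
    have hw : f (v + (-(f v e / f x e)) • x) e = 0 := by
      rw [h.add_left, h.smul_left]; field_simp; ring
    obtain ⟨a, b, hab⟩ := hspan _ hw
    have h5 : f (v + (-(f v e / f x e)) • x) u = 0 := by
      rw [hab, h.add_left, h.smul_left, h.smul_left, huu, heu]; ring
    rw [h.add_left, h.smul_left] at h5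
    field_simp
    field_simp at h5
    linear_combination h5
  have he'e : f e' e = 0 := by rw [h.herm, h12, map_zero]
  obtain ⟨a, b, hab⟩ := hspan _ he'e
  have h6 : a * σ a * f u u = 0 := by
    have h7 := h2
    rw [hab] at h7
    simp only [h.add_left, h.add_right, h.smul_left, h.smul_right, hue, heu, h1] at h7
    linear_combination h7
  have ha : a = 0 := by
    rcases mul_eq_zero.mp h6 with h8 | h8
    · rcases mul_eq_zero.mp h8 with h9 | h9
      · exact h9
      · simpa using h9
    · exact absurd h8 huu
  exact ⟨b, by rw [hab, ha, zero_smul, zero_add]⟩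

end geom

end Cfsg.Agent.Lib.QDU
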