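import Mathlib
import Cfsg.Agent.Lib.Helper97.HermGlue

set_option autoImplicit false

namespace Cfsg.Agent.Lib.QDU
open Module Function Cfsg.Agent.Lib.Helper97
open scoped commutatorElement

section geom
variable {K : Type*} [Field K] {V : Type*} [AddCommGroup V] [Module K V]
  [FiniteDimensional K V] {σ : K ≃+* K} {f : V → V → K}

theorem perp_basis (h : UF σ f) (h3 : finrank K V = 3) (e : V) (he : e ≠ 0) (hee : f e e = 0) :
    ∃ u : V, f u e = 0 ∧ (∀ c : K, u ≠ c • e) ∧
      ∀ w, f w e = 0 → ∃ a b : K, w = a • u + b • e := by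
  have hφ : h.hat e ≠ 0 := fun h0 => he (h.hat_eq_zero h0)
  have hP : finrank K (LinearMap.ker (h.hat e)) + 1 = finrank K V :=
    Module.Dual.finrank_ker_add_one_of_ne_zero hφ
  have hP2 : finrank K (LinearMap.ker (h.hat e)) = 2 := by omega
  have heP : e ∈ LinearMap.ker (h.hat e) := by simpa using hee
  obtain ⟨u, huP, hu⟩ : ∃ u ∈ LinearMap.ker (h.hat e), u ∉ Submodule.span K {e} := by
    by_contra hcon
    push Not at hcon
    have hle : LinearMap.ker (h.hat e) ≤ Submodule.span K {e} := hcon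
    have := Submodule.finrank_mono hle
    rw [finrank_span_singleton he] at this
    omega
  have hlt : Submodule.span K {e} < Submodule.span K {u, e} := by
    refine lt_of_le_of_ne (Submodule.span_mono (by simp)) ?_
    intro heq
    apply hu
    rw [heq]
    exact Submodule.subset_span (by simp)
  have h2 := Submodule.finrank_lt_finrank_of_lt hlt
  rw [finrank_span_singleton he] at h2
  have hle : Submodule.span K {u, e} ≤ LinearMap.ker (h.hat e) := by
    rw [Submodule.span_le]
    intro x hx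
    rcases hx with rfl | rfl
    · exact huP
    · exact heP
  have heq := Submodule.eq_of_le_of_finrank_le hle (by omega)
  refine ⟨u, by simpa using huP, ?_, ?_⟩
  · intro c hc
    exact hu (hc ▸ Submodule.smul_mem _ _ (Submodule.mem_span_singleton_self e))
  · intro w hw
    have hwP : w ∈ LinearMap.ker (h.hat e) := by simpa using hw
    rw [← heq, Submodule.mem_span_pair] at hwP
    obtain ⟨a, b, hab⟩ := hwP
    exact ⟨a, b, hab.symm⟩

/-- the subgroup acting trivially on the factors of the flag `0 < ⟨e⟩ < ⟨e, u⟩`. -/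
def flagKer {G : Type*} [Group G] (ρ : G →* Module.End K V) (e u : V) : Subgroup G where
  carrier := {x | ρ x e = e ∧ ∃ c : K, ρ x u = u + c • e}
  one_mem' := ⟨by simp, 0, by simp⟩
  mul_mem' := by
    rintro a b ⟨ha, ca, hca⟩ ⟨hb, cb, hcb⟩
    refine ⟨by rw [map_mul, Module.End.mul_apply, hb, ha], ca + cb, ?_⟩
    rw [map_mul, Module.End.mul_apply, hcb, map_add, map_smul, ha, hca]
    module
  inv_mem' := by
    rintro a ⟨ha, ca, hca⟩
    have hinv : ∀ v, ρ a⁻¹ (ρ a v) = v := fun v => by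
      rw [← Module.End.mul_apply, ← map_mul, inv_mul_cancel, map_one]; rfl
    have h1 : ρ a⁻¹ e = e := by
      have := hinv e
      rwa [ha] at this
    refine ⟨h1, -ca, ?_⟩
    have h2 := hinv u
    rw [hca, map_add, map_smul, h1] at h2
    calc ρ a⁻¹ u = (ρ a⁻¹ u + ca • e) + (-ca) • e := by module
      _ = u + (-ca) • e := by rw [h2]

/-- A4 -/
theorem comm_unip (h : UF σ f) (h3 : finrank K V = 3) {G : Type*} [Group G]
    (ρ : G →* Module.End K V) (hρ : ∀ g x y, f (ρ g x) (ρ g y) = f x y)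
    (e : V) (he : e ≠ 0) (hee : f e e = 0) (N : Subgroup G)
    (hN : ∀ g ∈ N, ∃ c : K, ρ g e = c • e) : ∀ x ∈ ⁅N, N⁆, (ρ x - 1) ^ 3 = 0 := by
  obtain ⟨u, hue, hu, hspan⟩ := perp_basis h h3 e he hee
  have hmul : ∀ (a b : G) v, ρ (a * b) v = ρ a (ρ b v) := fun a b v => by rw [map_mul]; rfl
  have hinv : ∀ (a : G) v, ρ a⁻¹ (ρ a v) = v := fun a v => by
    rw [← hmul, inv_mul_cancel, map_one]; rfl
  have hinv' : ∀ (a : G) v, ρ a (ρ a⁻¹ v) = v := fun a v => by
    rw [← hmul, mul_inv_cancel, map_one]; rfl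
  have hinj : ∀ a : G, Function.Injective (ρ a) := fun a =>
    Function.LeftInverse.injective (hinv a)
  have hNu : ∀ g ∈ N, ∃ m n : K, ρ g u = m • u + n • e := by
    intro g hg
    apply hspan
    obtain ⟨c, hc⟩ := hN g⁻¹ (N.inv_mem hg)
    have h1 : f (ρ g u) (ρ g (c • e)) = 0 := by
      rw [hρ, h.smul_right, hue, mul_zero]
    rwa [← hc, hinv'] at h1
  have hle : ⁅N, N⁆ ≤ flagKer ρ e u := by
    rw [Subgroup.commutator_le]
    intro g hg k hk
    obtain ⟨a, ha⟩ := hN g hg
    obtain ⟨b, hb⟩ := hN k hk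
    obtain ⟨m, n, hm⟩ := hNu g hg
    obtain ⟨m', n', hm'⟩ := hNu k hk
    have ha0 : a ≠ 0 := by
      rintro rfl
      rw [zero_smul] at ha
      exact he (hinj g (by rw [ha, map_zero]))
    have hb0 : b ≠ 0 := by
      rintro rfl
      rw [zero_smul] at hb
      exact he (hinj k (by rw [hb, map_zero]))
    have hm0 : m ≠ 0 := by
      rintro rfl
      rw [zero_smul, zero_add] at hm
      apply hu (n / a)
      apply hinj g
      rw [hm, map_smul, ha, smul_smul, div_mul_cancel₀ _ ha0]
    have hm0' : m' ≠ 0 := by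
      rintro rfl
      rw [zero_smul, zero_add] at hm'
      apply hu (n' / b)
      apply hinj k
      rw [hm', map_smul, hb, smul_smul, div_mul_cancel₀ _ hb0]
    have hxk : ⁅g, k⁆ * k * g = g * k := by rw [commutatorElement_def]; group
    have h1 : ρ ⁅g, k⁆ (ρ k (ρ g e)) = ρ g (ρ k e) := by
      rw [← hmul, ← hmul, hxk, hmul]
    have h2 : ρ ⁅g, k⁆ (ρ k (ρ g u)) = ρ g (ρ k u) := by
      rw [← hmul, ← hmul, hxk, hmul]
    have hxe : ρ ⁅g, k⁆ e = e := by
      rw [ha, hb, map_smul, map_smul, map_smul, hb, ha, map_smul, smul_smul, smul_smul,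
        mul_comm b a] at h1
      exact smul_right_injective V (mul_ne_zero ha0 hb0) h1
    refine ⟨hxe, (m' * n + n' * a - m * n' - n * b) / (m * m'), ?_⟩
    apply smul_right_injective V (mul_ne_zero hm0 hm0')
    show (m * m') • ρ ⁅g, k⁆ u = (m * m') • (u + _ • e)
    rw [smul_add, smul_smul, mul_div_cancel₀ _ (mul_ne_zero hm0 hm0')]
    rw [hm, hm'] at h2
    simp only [map_add, map_smul, hm, hm', ha, hb, hxe] at h2
    linear_combination (norm := module) h2
  intro x hx
  obtain ⟨hxe, c, hxc⟩ := hle hx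
  ext v
  have e0 : f (ρ x v) e = f v e := by
    have := hρ x v e
    rwa [hxe] at this
  have e1 : f ((ρ x - 1) v) e = 0 := by
    have : h.hat e (ρ x v - v) = 0 := by
      rw [map_sub, h.hat_apply, h.hat_apply, e0, sub_self]
    exact this
  obtain ⟨α, β, hαβ⟩ := hspan _ e1
  have e2 : (ρ x - 1) ((ρ x - 1) v) = (α * c) • e := by
    rw [hαβ]
    simp only [LinearMap.sub_apply, map_add, map_smul, hxe, hxc, Module.End.one_apply]
    module
  have e3 : ((ρ x - 1) ^ 3 : Module.End K V) v = (ρ x - 1) ((ρ x - 1) ((ρ x - 1) v)) := by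
    rw [pow_succ, pow_succ, pow_one, Module.End.mul_apply, Module.End.mul_apply]
  rw [e3, e2, map_smul]
  simp [LinearMap.sub_apply, hxe]

end geom

end Cfsg.Agent.Lib.QDU
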