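import Mathlib

set_option autoImplicit false

namespace Cfsg.Agent.Lib.QDU
open Module Function

section geom
variable {K : Type*} [Field K] {V : Type*} [AddCommGroup V] [Module K V]

/-- A5 -/
theorem pow_p_eq_one (p : ℕ) [Fact p.Prime] [CharP K p] (hp : p ≠ 2) (T : Module.End K V)
    (hT : (T - 1) ^ 3 = 0) : T ^ p = 1 := by
  have hp3 : 3 ≤ p := by
    have := (Fact.out : p.Prime).two_le
    omega
  have h1 : (T - 1) ^ p = 0 := pow_eq_zero_of_le hp3 hT
  rcases subsingleton_or_nontrivial V with hV | hV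
  · ext v
    exact Subsingleton.elim _ _
  · have : CharP (Module.End K V) p :=
      charP_of_injective_algebraMap (algebraMap K (Module.End K V)).injective p
    have h2 := sub_pow_char_of_commute p (Commute.one_right T)
    rw [one_pow] at h2
    rw [h2] at h1
    exact sub_eq_zero.mp h1

end geom

/-- Q3 -/
theorem exists_comm_neg_one (p : ℕ) [Fact p.Prime] (hp : p ≠ 2) :
    ∃ a b : Matrix.SpecialLinearGroup (Fin 2) (ZMod p), a * b * a⁻¹ * b⁻¹ = -1 ∧
      (-1 : Matrix.SpecialLinearGroup (Fin 2) (ZMod p)) ^ p ≠ 1 := by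
  obtain ⟨a, b, hab⟩ := ZMod.sq_add_sq p (-1)
  have hodd : Odd p := (Fact.out : p.Prime).odd_of_ne_two hp
  have hdA : (!![0, -1; 1, 0] : Matrix (Fin 2) (Fin 2) (ZMod p)).det = 1 := by
    simp [Matrix.det_fin_two]
  have hdB : (!![a, b; b, -a] : Matrix (Fin 2) (Fin 2) (ZMod p)).det = 1 := by
    simp [Matrix.det_fin_two]; linear_combination -hab
  let A : Matrix.SpecialLinearGroup (Fin 2) (ZMod p) := ⟨!![0, -1; 1, 0], hdA⟩
  let B : Matrix.SpecialLinearGroup (Fin 2) (ZMod p) := ⟨!![a, b; b, -a], hdB⟩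
  have hc : A * B = -1 * (B * A) := by
    apply Subtype.ext
    simp only [Matrix.SpecialLinearGroup.coe_mul, Matrix.SpecialLinearGroup.coe_neg,
      Matrix.SpecialLinearGroup.coe_one]
    show (!![0, -1; 1, 0] : Matrix (Fin 2) (Fin 2) (ZMod p)) * !![a, b; b, -a] =
      -1 * (!![a, b; b, -a] * !![0, -1; 1, 0])
    ext i j
    fin_cases i <;> fin_cases j <;> simp [Matrix.mul_apply, Fin.sum_univ_two]
  refine ⟨A, B, ?_, ?_⟩
  · rw [hc]; group
  · rw [hodd.neg_one_pow]
    intro h
    have h00 := congrArg (fun M : Matrix.SpecialLinearGroup (Fin 2) (ZMod p) => M.1 0 0) h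
    simp at h00
    have h2 : (2 : ZMod p) = 0 := by linear_combination -h00
    have h3 : ((2 : ℕ) : ZMod p) = 0 := by exact_mod_cast h2
    rw [ZMod.natCast_eq_zero_iff] at h3
    have := Nat.le_of_dvd (by norm_num) h3
    have := (Fact.out : p.Prime).two_le
    omega

end Cfsg.Agent.Lib.QDU
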