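import Cfsg.Agent.Lib.Helper89.QDU.A5
import Cfsg.Agent.Lib.Helper39.LocFree2

set_option autoImplicit false

namespace Cfsg.Agent.Lib.QDU
open Module Function Cfsg.Agent.Lib.Helper39
open scoped commutatorElement

/-- Q4 -/
theorem LF_of_local (p : ℕ) [Fact p.Prime] (hp : p ≠ 2) {X : Type*} [Group X]
    (h : ∀ Q : Subgroup X, IsPGroup p Q → Q ≠ ⊥ →
      ∀ x ∈ ⁅Subgroup.normalizer (Q : Set X), Subgroup.normalizer (Q : Set X)⁆, x ^ p = 1) :
    LF p X := by
  rintro Q hQ ⟨H, K, hK, h1, h2, h3, ⟨e⟩⟩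
  obtain ⟨a, b, hab, hne⟩ := exists_comm_neg_one p hp
  obtain ⟨x, hx⟩ := QuotientGroup.mk_surjective (e.symm a)
  obtain ⟨y, hy⟩ := QuotientGroup.mk_surjective (e.symm b)
  have hxy : e (QuotientGroup.mk (x * y * x⁻¹ * y⁻¹)) = -1 := by
    rw [QuotientGroup.mk_mul, QuotientGroup.mk_mul, QuotientGroup.mk_mul, QuotientGroup.mk_inv,
      QuotientGroup.mk_inv, hx, hy]
    simp [hab]
  by_cases hQb : Q = ⊥
  · subst hQb
    have hKtop : ∀ z : X, z ∈ K := fun z => h1 (by simp [Subgroup.mem_centralizer_iff])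
    have h4 : (QuotientGroup.mk (x * y * x⁻¹ * y⁻¹) : ↥H ⧸ K.subgroupOf H) = 1 :=
      (QuotientGroup.eq_one_iff _).mpr (hKtop _)
    rw [h4, map_one] at hxy
    apply hne
    rw [← hxy, one_pow]
  · have hc : ((x * y * x⁻¹ * y⁻¹ : ↥H) : X) ∈
        ⁅Subgroup.normalizer (Q : Set X), Subgroup.normalizer (Q : Set X)⁆ := by
      have := Subgroup.commutator_mem_commutator (h3 x.2) (h3 y.2)
      simpa [commutatorElement_def] using this
    have hp1 := h Q hQ hQb _ hc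
    have h5 : (x * y * x⁻¹ * y⁻¹ : ↥H) ^ p = 1 := Subtype.ext (by simpa using hp1)
    apply hne
    rw [← hxy, ← map_pow, ← QuotientGroup.mk_pow, h5]
    simp

end Cfsg.Agent.Lib.QDU
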